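import Cfsg.Agent.H586.RIM.LayerBP
import Cfsg.Agent.H586.RIM.TwoCount
import Cfsg.Agent.H302.RIM.Three

/-!
# S4816: layer (B) from the rows (helper586)

`layerBP` : `LayerBP p`, for `p ≠ 3` unconditionally, for `p = 3` from the rows `NBall 3 S ∨ Surv 3 S`.
-/

set_option autoImplicit false
set_option linter.unusedSectionVars false
set_option linter.style.haveILetI false

open Cfsg
open scoped commutatorElement Pointwise

namespace Cfsg.Agent.H586.RIM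

open Cfsg.Agent.H229.RIM Cfsg.Agent.H665.RIM Cfsg.Agent.H263.RIM Cfsg.Agent.H325.RIM
open Cfsg.Agent.H511.Wt MulAction Cfsg.Agent.H229.NX
open Cfsg.Agent.Schreier.Basic (Sch)

universe u

theorem surv_congr {p : ℕ} {S T : Type u} [Group S] [Group T] (e : S ≃* T) (h : Surv p S) : Surv p T := by
  obtain ⟨g, h1, h2⟩ := h
  exact ⟨g, named_congr h1 e.symm, h2⟩

/-- layer (B) for `p ≠ 3` -/
theorem layerBP_ne {p : ℕ} [hp : Fact p.Prime] (hp3 : p ≠ 3) : LayerBP.{u} p :=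
  layerBP_five fun h hL => Cfsg.Agent.H302.RIM.false_five h hL hp3

/-- layer (B) for `p = 3` -/
theorem layerBP_eq (P : Pow)
    (hSch : ∀ (S : Type u) [Group S] [Finite S], IsSimpleGroup S → ¬ IsMulCommutative S → Sch S)
    (him : Cfsg.Agent.H37.NX.IM.{u} 3)
    (hrow : ∀ (S : Type u) [Group S] [Finite S], IsSimpleGroup S → ¬ IsMulCommutative S → 3 ∣ Nat.card S →
      AbSyl 3 S → NBall.{u} 3 S ∨ Surv 3 S) : LayerBP.{u} 3 := by
  refine layerBP_three P hSch him ?_ (fun S _ => Surv 3 S) (fun S T _ _ e h => surv_congr e h) hrow ?_ ?_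
  · intro s n f Y U G W _ _ _ _ _ _ _ _ _ _ X B L Z π a h hL
    obtain ⟨rfl, hn⟩ := Cfsg.Agent.H302.RIM.le_five h
    obtain ⟨q₀, S⟩ := Cfsg.Agent.H302.RIM.exists_SX' h
    exact ⟨rfl, hn, Cfsg.Agent.H610.NX.X_central S hn⟩
  · intro n f Y U G W _ _ _ _ _ _ _ _ _ _ X hXn B L Z π a h hL hn hc hS
    exact Cfsg.Agent.H302.RIM.false_three h hL hn hc hXn hS
  · intro n₁ n₂ f₁ f₂ f Y₁ U₁ Y₂ U₂ Y U _ _ _ _ _ _ _ _ _ _ _ _ _ _ _ X₁ B₁ X₂ B₂ X B h₁ h₂ h hn₁ hn₂ _ _ hX hc₁ hc₂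
    exact two_count h₁ h₂ h hn₁ hn₂ hX hc₁ hc₂

/-- **layer (B)** -/
theorem layerBP (P : Pow)
    (hSch : ∀ (S : Type u) [Group S] [Finite S], IsSimpleGroup S → ¬ IsMulCommutative S → Sch S)
    (him : Cfsg.Agent.H37.NX.IM.{u} 3)
    (hrow : ∀ (S : Type u) [Group S] [Finite S], IsSimpleGroup S → ¬ IsMulCommutative S → 3 ∣ Nat.card S →
      AbSyl 3 S → NBall.{u} 3 S ∨ Surv 3 S) {p : ℕ} [hp : Fact p.Prime] : LayerBP.{u} p := by
  by_cases hp3 : p = 3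
  · subst hp3
    exact layerBP_eq P hSch him hrow
  · exact layerBP_ne hp3

end Cfsg.Agent.H586.RIM
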